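import Cfsg.Agent.H360.L34.Nine
import Cfsg.Agent.H745.L34.Cls
import Cfsg.Agent.H745.L34.Cls7

/-!
# S5917 (M7): `nine_dims` (helper360)
-/

set_option autoImplicit false

namespace Cfsg.Agent.H360.L34

open Matrix Cfsg.Agent.H691.L34

variable {F : Type} [Field F] [Fintype F] {V : Type} [AddCommGroup V] [Module (ZMod 2) V] [Module.Finite (ZMod 2) V]
  {ρ : Representation (ZMod 2) (G3 F) V}

/-- **M7 (1)** -/
theorem nine_dims (hF : Fintype.card F = 4) {b : Bool} {W : Submodule (ZMod 2) V} (h : IsNine ρ b W) :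
    Dims ρ W 9 3 1 0 :=
  nine_dims_of (fun hw g h3 hc => H745.L34.cls3 hF hw g h3 hc) (fun hw g h5 => H745.L34.cls5 hF hw g h5)
    (fun g h7 => H745.L34.cls7 hF g h7) hF h

end Cfsg.Agent.H360.L34
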