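import Cfsg.Agent.H288.L34.Herm

/-!
# S5917 (M7): the module of hermitian matrices (helper360)

`nine_dims_of` (from the class lemmas), `nine_simp`, `nine_ne`.
-/

set_option autoImplicit false

namespace Cfsg.Agent.H360.L34

open Matrix Cfsg.Agent.H691.L34 Cfsg.Agent.SporadicA.FieldFour Cfsg.Agent.H288.L34

/-! ### bit masks -/

/-- difference -/
def dg (k n : ℕ) : ℕ := act (M k) n ^^^ n

/-- towards a vector fixed by the unitriangular group -/
def red : ℕ → ℕ → ℕ
  | 0, n => n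
  | f + 1, n => if dg 0 n = 0 then (if dg 1 n = 0 then (if dg 2 n = 0 then (if dg 3 n = 0 then n else red f (dg 3 n))
      else red f (dg 2 n)) else red f (dg 1 n)) else red f (dg 0 n)

theorem red_ok : ∀ n < 512, n ≠ 0 → red 4 n = 1 := by decide +kernel

/-- a predicate closed under addition and the ten elements -/
structure Clo (K : ℕ → Prop) : Prop where
  add : ∀ a b, K a → K b → K (a ^^^ b)
  map : ∀ g < 10, ∀ n, K n → K (act (M g) n)

theorem Clo.dg {K : ℕ → Prop} (h : Clo K) {k : ℕ} (hk : k < 10) {n : ℕ} (hn : K n) : K (dg k n) :=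
  h.add _ _ (h.map k hk n hn) hn

theorem Clo.red {K : ℕ → Prop} (h : Clo K) (f : ℕ) : ∀ {n : ℕ}, K n → K (red f n) := by
  induction f with
  | zero => intro n hn; exact hn
  | succ f ih =>
    intro n hn
    rw [L34.red]
    split_ifs
    · exact hn
    · exact ih (h.dg (by norm_num) hn)
    · exact ih (h.dg (by norm_num) hn)
    · exact ih (h.dg (by norm_num) hn)
    · exact ih (h.dg (by norm_num) hn)

theorem vals : act (M 4) 1 = 256 ∧ act (M 4) 256 = 8 ∧ act (M 6) 1 ^^^ (1 ^^^ 8) = 2 ∧ act (M 7) 1 ^^^ (1 ^^^ 8) = 4 ∧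
    act (M 4) 2 = 16 ∧ act (M 4) 16 = 64 ∧ act (M 4) 4 ^^^ 16 = 32 ∧ act (M 4) 32 ^^^ 64 = 128 := by decide +kernel

theorem Clo.all {K : ℕ → Prop} (h : Clo K) {n0 : ℕ} (h0 : K n0) (hn : n0 ≠ 0) (hlt : n0 < 512) :
    ∀ n < 512, K n := by
  have h1 : K 1 := by
    have := h.red 4 h0
    rwa [red_ok n0 hlt hn] at this
  obtain ⟨v1, v2, v3, v4, v5, v6, v7, v8⟩ := vals
  have h256 : K 256 := by have := h.map 4 (by norm_num) _ h1; rwa [v1] at this
  have h8 : K 8 := by have := h.map 4 (by norm_num) _ h256; rwa [v2] at this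
  have h2 : K 2 := by have := h.add _ _ (h.map 6 (by norm_num) _ h1) (h.add _ _ h1 h8); rwa [v3] at this
  have h4 : K 4 := by have := h.add _ _ (h.map 7 (by norm_num) _ h1) (h.add _ _ h1 h8); rwa [v4] at this
  have h16 : K 16 := by have := h.map 4 (by norm_num) _ h2; rwa [v5] at this
  have h64 : K 64 := by have := h.map 4 (by norm_num) _ h16; rwa [v6] at this
  have h32 : K 32 := by have := h.add _ _ (h.map 4 (by norm_num) _ h4) h16; rwa [v7] at this
  have h128 : K 128 := by have := h.add _ _ (h.map 4 (by norm_num) _ h32) h64; rwa [v8] at this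
  have hz : K 0 := by have := h.add _ _ h1 h1; rwa [Nat.xor_self] at this
  have key : ∀ (l : List ℕ), (∀ x ∈ l, K x) → ∀ n, K (act l n) := by
    intro l hl
    induction l with
    | nil => intro n; exact hz
    | cons x l ih =>
      intro n
      rw [act_cons]
      refine h.add _ _ ?_ (ih (fun y hy => hl y (List.mem_cons_of_mem _ hy)) _)
      cases (n % 2).beq 1
      · exact hz
      · exact hl x (List.mem_cons_self ..)
  intro n hn
  have e : act (pows 9 0) n = n := act_pows_zero 9 n (by norm_num; exact hn)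
  rw [← e]
  refine key _ ?_ n
  have hp : pows 9 0 = [1, 2, 4, 8, 16, 32, 64, 128, 256] := by decide +kernel
  rw [hp]
  intro x hx
  simp only [List.mem_cons, List.not_mem_nil, or_false] at hx
  rcases hx with rfl | rfl | rfl | rfl | rfl | rfl | rfl | rfl | rfl <;> assumption

/-- decoding -/
theorem dec_ok : ∀ n < 512, code (evf (B4.map (fun X => X 0 0)) n) (evf (B4.map (fun X => X 0 1)) n)
    (evf (B4.map (fun X => X 1 1)) n) (evf (B4.map (fun X => X 0 2)) n) (evf (B4.map (fun X => X 1 2)) n)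
    (evf (B4.map (fun X => X 2 2)) n) = n := by decide +kernel

theorem ev_inj {n m : ℕ} (hn : n < 512) (hm : m < 512) (h : ev B4 n = ev B4 m) : n = m := by
  rw [← dec_ok n hn, ← dec_ok m hm]
  rw [← ev_entry, ← ev_entry, ← ev_entry, ← ev_entry, ← ev_entry, ← ev_entry, h, ev_entry, ev_entry, ev_entry, ev_entry,
    ev_entry, ev_entry]

theorem ne_ok : ∀ n < 512, act (M 5) n = n → act (M 6) n = n → act (M 8) n = n → act (M 2) n = n → n = 0 := by
  decide +kernel

theorem lt_ok : ∀ g < 10, ltOK (M g) 9 = true := by decide +kernel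

/-- the element of order 5 -/
def m5 : M3 F4 := !![F4.z, F4.o, F4.z; F4.o, F4.w, F4.z; F4.z, F4.z, F4.o]
/-- the element of order 7 -/
def m7 : M3 F4 := !![F4.z, F4.z, F4.o; F4.o, F4.z, F4.o; F4.z, F4.o, F4.z]

def N5 : List ℕ := [8, 10, 6, 15, 64, 128, 144, 224, 256]
def N7 : List ℕ := [8, 64, 128, 256, 2, 14, 80, 240, 11]

theorem chk5 : ∀ a b : Fin 3, eqb (B4.map (fun X => hx m5 X a b)) (N5.map (fun n => evf (B4.map (fun X => X a b)) n)) =
    true := by decide +kernel
theorem chk7 : ∀ a b : Fin 3, eqb (B4.map (fun X => hx m7 X a b)) (N7.map (fun n => evf (B4.map (fun X => X a b)) n)) =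
    true := by decide +kernel
theorem chkd : ∀ a b : Fin 3, eqb (B4.map (fun X => hx (gm 5) X a b))
    ((M 5).map (fun n => evf (B4.map (fun X => X a b)) n)) = true := by decide +kernel

theorem cols_of {g : M3 F4} {c : List ℕ} (hl : c.length = 9)
    (h : ∀ a b : Fin 3, eqb (B4.map (fun X => hx g X a b)) (c.map (fun n => evf (B4.map (fun X => X a b)) n)) = true) :
    B4.map (fun X => g * X * ct g) = c.map (ev B4) := by
  have hl' : B4.length = 9 := rfl
  apply List.ext_getElem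
  · rw [List.length_map, List.length_map, hl', hl]
  · intro i h1 h2
    rw [List.getElem_map, List.getElem_map]
    ext a b
    rw [hx_eq, ev_entry]
    have h3 := eq_of_eqb _ _ (h a b)
    have h5 : i < (B4.map (fun X => hx g X a b)).length := by
      rw [List.length_map] at h1 ⊢; exact h1
    have h4 := List.getElem_of_eq h3 h5
    rw [List.getElem_map, List.getElem_map] at h4
    exact h4

theorem card_fix_d : (Finset.univ.filter fun n : Fin 512 => act (M 5) n = n).card = 8 := by decide +kernel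
theorem card_fix_5 : (Finset.univ.filter fun n : Fin 512 => act N5 n = n).card = 2 := by decide +kernel
theorem card_fix_7 : (Finset.univ.filter fun n : Fin 512 => act N7 n = n).card = 1 := by decide +kernel

/-! ### fields with four elements -/

section

variable {F : Type} [Field F] [Fintype F]

theorem exists_e (hF : Fintype.card F = 4) : Nonempty (F4 ≃+* F) :=
  ⟨FiniteField.ringEquivOfCardEq (F4.card_eq.trans hF.symm)⟩

theorem ct_ct (hF : Fintype.card F = 4) (X : M3 F) : ct (ct X) = X := by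
  ext i j
  simp only [ct, Matrix.transpose_apply, Matrix.map_apply]
  have := FiniteField.pow_card (X i j)
  rw [hF] at this
  rw [← pow_mul]
  exact this

omit [Fintype F] in
theorem ct_one : ct (1 : M3 F) = 1 := by
  ext i j
  simp only [ct, Matrix.transpose_apply, Matrix.map_apply, Matrix.one_apply]
  by_cases h : i = j
  · subst h; simp
  · rw [if_neg h, if_neg (Ne.symm h)]; simp

theorem hch (hF : Fintype.card F = 4) : ∀ a : F, a + a = 0 := by
  obtain ⟨e⟩ := exists_e hF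
  exact char_two e

theorem hact_mul (hF : Fintype.card F = 4) (a b : G3 F) (X : M3 F) : hact (a * b) X = hact a (hact b X) := by
  unfold hact
  have e : ((a * b : G3 F) : M3 F) = (a : M3 F) * (b : M3 F) := rfl
  rw [e, ct_mul _ _ (hch hF)]
  simp only [Matrix.mul_assoc]

omit [Fintype F] in
theorem hact_one (X : M3 F) : hact (1 : G3 F) X = X := by
  unfold hact
  have e : ((1 : G3 F) : M3 F) = 1 := rfl
  rw [e, ct_one, Matrix.one_mul, Matrix.mul_one]

theorem HF_hact (hF : Fintype.card F = 4) (g : G3 F) {X : M3 F} (hX : HF X) : HF (hact g X) := by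
  unfold HF at hX ⊢
  unfold hact
  rw [ct_mul _ _ (hch hF), ct_mul _ _ (hch hF), ct_ct hF, hX, Matrix.mul_assoc]

/-- number of fixed hermitian matrices -/
noncomputable def NN (g : G3 F) : ℕ := Nat.card {X : M3 F // HF X ∧ hact g X = X}

theorem NN_conj (hF : Fintype.card F = 4) (k g : G3 F) : NN (k * g * k⁻¹) = NN g := by
  unfold NN
  have h1 : ∀ (k g : G3 F) (X : M3 F), HF X ∧ hact g X = X → HF (hact k X) ∧ hact (k * g * k⁻¹) (hact k X) = hact k X := by
    intro k g X hX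
    refine ⟨HF_hact hF k hX.1, ?_⟩
    rw [← hact_mul hF, inv_mul_cancel_right, hact_mul hF, hX.2]
  have h2 : ∀ Y : M3 F, HF Y ∧ hact (k * g * k⁻¹) Y = Y → HF (hact k⁻¹ Y) ∧ hact g (hact k⁻¹ Y) = hact k⁻¹ Y := by
    intro Y hY
    have := h1 k⁻¹ (k * g * k⁻¹) Y hY
    rwa [inv_inv, show k⁻¹ * (k * g * k⁻¹) * k = g by group] at this
  refine (Nat.card_congr ⟨fun X => ⟨hact k X.1, h1 k g X.1 X.2⟩, fun Y => ⟨hact k⁻¹ Y.1, h2 Y.1 Y.2⟩, fun X => ?_,
    fun Y => ?_⟩).symm
  · apply Subtype.ext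
    show hact k⁻¹ (hact k X.1) = X.1
    rw [← hact_mul hF, inv_mul_cancel, hact_one]
  · apply Subtype.ext
    show hact k (hact k⁻¹ Y.1) = Y.1
    rw [← hact_mul hF, mul_inv_cancel, hact_one]

theorem hact_pow (hF : Fintype.card F = 4) {g : G3 F} {X : M3 F} (h : hact g X = X) (n : ℕ) : hact (g ^ n) X = X := by
  induction n with
  | zero => rw [pow_zero, hact_one]
  | succ n ih => rw [pow_succ, hact_mul hF, h, ih]

theorem NN_pow (hF : Fintype.card F = 4) {g y : G3 F} {m n : ℕ} (h1 : g = y ^ m) (h2 : g ^ n = y) : NN g = NN y := by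
  unfold NN
  refine Nat.card_congr (Equiv.subtypeEquivRight fun X => ?_)
  constructor
  · rintro ⟨h3, h4⟩
    exact ⟨h3, by rw [← h2]; exact hact_pow hF h4 n⟩
  · rintro ⟨h3, h4⟩
    exact ⟨h3, by rw [h1]; exact hact_pow hF h4 m⟩

theorem hact_cols (e : F4 ≃+* F) {g : G3 F} {m : M3 F4} (hg : g.1 = mu e m) {c : List ℕ}
    (h : B4.map (fun X => m * X * ct m) = c.map (ev B4)) (n : ℕ) :
    hact g (mu e (ev B4 n)) = mu e (ev B4 (act c n)) := by
  unfold hact
  rw [hg, ct_mu, ← map_mul, ← map_mul]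
  congr 1
  have hV : ∀ X : M3 F4, X + X = 0 := by
    intro X; ext i j
    have : ∀ a : F4, a + a = 0 := by decide
    exact this _
  let f : M3 F4 →+ M3 F4 :=
    { toFun := fun X => m * X * ct m
      map_zero' := by rw [Matrix.mul_zero, Matrix.zero_mul]
      map_add' := fun X Y => by rw [Matrix.mul_add, Matrix.add_mul] }
  have h1 := map_ev f B4 n
  have h2 : B4.map f = c.map (ev B4) := h
  rw [h2, ev_map_ev hV] at h1
  exact h1

theorem NN_cols (e : F4 ≃+* F) {g : G3 F} {m : M3 F4} (hg : g.1 = mu e m) {c : List ℕ}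
    (h : B4.map (fun X => m * X * ct m) = c.map (ev B4)) (hlt : ltOK c 9 = true) {N : ℕ}
    (hN : (Finset.univ.filter fun n : Fin 512 => act c n = n).card = N) : NN g = N := by
  classical
  unfold NN
  have h0 : Nat.card {n : Fin 512 // act c n = n} = N := by
    rw [Nat.card_eq_fintype_card, Fintype.card_subtype]
    exact hN
  rw [← h0]
  symm
  refine Nat.card_congr (Equiv.ofBijective (fun n => ⟨mu e (ev B4 n.1), HF_ev e _, ?_⟩) ⟨?_, ?_⟩)
  · rw [hact_cols e hg h, n.2]
  · intro a b hab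
    have h1 := congrArg Subtype.val hab
    have h2 := mu_inj e _ _ h1
    exact Subtype.ext (Fin.ext (ev_inj a.1.2 b.1.2 h2))
  · rintro ⟨X, hX, hg'⟩
    obtain ⟨n, hn, rfl⟩ := herm_ev e X hX
    have hn' : n < 512 := by norm_num at hn; exact hn
    refine ⟨⟨⟨n, hn'⟩, ?_⟩, rfl⟩
    rw [hact_cols e hg h] at hg'
    have h3 := act_lt c 9 n hlt
    norm_num at h3
    exact ev_inj h3 hn' (mu_inj e _ _ hg')

end

/-! ### the class lemmas (helper745, helper482) -/

/-- elements of order 3 -/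
def Cls3 (F : Type) [Field F] [Fintype F] : Prop := ∀ {w : F}, w ^ 2 + w + 1 = 0 → ∀ g : G3 F, orderOf g = 3 →
  g ∉ Subgroup.center (G3 F) → ∃ k : G3 F, (k * g * k⁻¹).1 = !![1, 0, 0; 0, w, 0; 0, 0, w ^ 2]

/-- elements of order 5 -/
def Cls5 (F : Type) [Field F] [Fintype F] : Prop := ∀ {w : F}, w ^ 2 + w + 1 = 0 → ∀ g : G3 F, orderOf g = 5 →
  ∃ (k y : G3 F) (m : ℕ), y.1 = !![0, 1, 0; 1, w, 0; 0, 0, 1] ∧ k * g * k⁻¹ = y ^ m ∧ ∃ n : ℕ, (k * g * k⁻¹) ^ n = y

/-- elements of order 7 -/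
def Cls7 (F : Type) [Field F] [Fintype F] : Prop := ∀ g : G3 F, orderOf g = 7 →
  ∃ (k y : G3 F) (m : ℕ), y.1 = !![0, 0, 1; 1, 0, 1; 0, 1, 0] ∧ k * g * k⁻¹ = y ^ m ∧ ∃ n : ℕ, (k * g * k⁻¹) ^ n = y

section

variable {F : Type} [Field F] [Fintype F]

omit [Fintype F] in
theorem ew (e : F4 ≃+* F) : (e F4.w) ^ 2 + e F4.w + 1 = 0 := by
  have h : F4.w ^ 2 + F4.w + 1 = 0 := by decide
  have := congrArg e h
  simpa only [map_add, map_pow, map_one, map_zero] using this

theorem NN3 (hF : Fintype.card F = 4) (hc : Cls3 F) {g : G3 F} (h : orderOf g = 3) (hg : g ∉ Subgroup.center (G3 F)) :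
    NN g = 8 := by
  obtain ⟨e⟩ := exists_e hF
  obtain ⟨k, hk⟩ := hc (ew e) g h hg
  rw [← NN_conj hF k g]
  refine NN_cols e (m := gm 5) ?_ (cols_of (M_len 5 (by norm_num)) chkd) (lt_ok 5 (by norm_num)) card_fix_d
  rw [hk]
  have h2 : (e F4.w) ^ 2 = e F4.v := by
    rw [← map_pow]
    exact congrArg e (by decide)
  rw [h2]
  ext i j
  fin_cases i <;> fin_cases j <;> simp [mu_apply, gm] <;> first
    | exact (map_one e).symm
    | exact (map_zero e).symm
    | rfl

theorem NN5 (hF : Fintype.card F = 4) (hc : Cls5 F) {g : G3 F} (h : orderOf g = 5) : NN g = 2 := by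
  obtain ⟨e⟩ := exists_e hF
  obtain ⟨k, y, m, hy, h1, n, h2⟩ := hc (ew e) g h
  rw [← NN_conj hF k g, NN_pow hF h1 h2]
  refine NN_cols e (m := m5) ?_ (cols_of rfl chk5) (by decide +kernel) card_fix_5
  rw [hy]
  ext i j
  fin_cases i <;> fin_cases j <;> simp [mu_apply, m5] <;> first
    | exact (map_one e).symm
    | exact (map_zero e).symm
    | rfl

theorem NN7 (hF : Fintype.card F = 4) (hc : Cls7 F) {g : G3 F} (h : orderOf g = 7) : NN g = 1 := by
  obtain ⟨e⟩ := exists_e hF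
  obtain ⟨k, y, m, hy, h1, n, h2⟩ := hc g h
  rw [← NN_conj hF k g, NN_pow hF h1 h2]
  refine NN_cols e (m := m7) ?_ (cols_of rfl chk7) (by decide +kernel) card_fix_7
  rw [hy]
  ext i j
  fin_cases i <;> fin_cases j <;> simp [mu_apply, m7] <;> first
    | exact (map_one e).symm
    | exact (map_zero e).symm
    | rfl

theorem NN_one (hF : Fintype.card F = 4) : Nat.card {X : M3 F // HF X} = 512 := by
  obtain ⟨e⟩ := exists_e hF
  have h0 : Nat.card (Fin 512) = 512 := by simp
  rw [← h0]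
  symm
  refine Nat.card_congr (Equiv.ofBijective (fun n : Fin 512 => ⟨mu e (ev B4 n.1), HF_ev e _⟩) ⟨?_, ?_⟩)
  · intro a b hab
    have h1 := congrArg Subtype.val hab
    exact Fin.ext (ev_inj a.2 b.2 (mu_inj e _ _ h1))
  · rintro ⟨X, hX⟩
    obtain ⟨n, hn, rfl⟩ := herm_ev e X hX
    exact ⟨⟨n, by norm_num at hn; exact hn⟩, rfl⟩

end

section

variable {F : Type} [Field F] [Fintype F] {V : Type} [AddCommGroup V] [Module (ZMod 2) V]
  {ρ : Representation (ZMod 2) (G3 F) V}

theorem finrank_of_card [Module.Finite (ZMod 2) V] (W : Submodule (ZMod 2) V) {n : ℕ} (h : Nat.card W = 2 ^ n) :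
    Module.finrank (ZMod 2) W = n := by
  have h1 := Module.natCard_eq_pow_finrank (K := ZMod 2) (V := W)
  rw [h, Nat.card_zmod] at h1
  exact (Nat.pow_right_injective le_rfl h1).symm

omit [Fintype F] in
theorem orderOf_tw (b : Bool) (g : G3 F) : orderOf (tw b g) = orderOf g := by
  refine orderOf_injective (tw b) ?_ g
  intro x y hxy
  have := congrArg (tw b) hxy
  rwa [tw_tw, tw_tw] at this

omit [Fintype F] in
theorem tw_center (b : Bool) {g : G3 F} (hg : g ∉ Subgroup.center (G3 F)) : tw b g ∉ Subgroup.center (G3 F) := by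
  intro h
  apply hg
  rw [Subgroup.mem_center_iff] at h ⊢
  intro x
  have h1 := h (tw b x)
  rw [← map_mul, ← map_mul] at h1
  have := congrArg (tw b) h1
  rwa [tw_tw, tw_tw] at this

theorem phi_inj (hF : Fintype.card F = 4) {φ : M3 F → V}
    (h1 : ∀ X Y, HF X → HF Y → φ (X + Y) = φ X + φ Y) (h2 : ∀ X, HF X → φ X = 0 → X = 0) {X Y : M3 F} (hX : HF X)
    (hY : HF Y) (h : φ X = φ Y) : X = Y := by
  have h3 := h1 X Y hX hY
  rw [h, vv] at h3
  have h4 := h2 _ (HF_add _ _ (hch hF) hX hY) h3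
  have h5 : Y + Y = 0 := by ext i j; exact hch hF _
  exact add_right_cancel (h4.trans h5.symm)

theorem card_nine (hF : Fintype.card F = 4) {b : Bool} {W : Submodule (ZMod 2) V} (h : IsNine ρ b W) :
    Nat.card W = 2 ^ 9 := by
  obtain ⟨φ, h1, h2, h3, h4⟩ := h
  have : (2 ^ 9 : ℕ) = 512 := by norm_num
  rw [this, ← NN_one hF]
  symm
  refine Nat.card_congr (Equiv.ofBijective
    (fun X : {X : M3 F // HF X} => (⟨φ X.1, (h3 _).2 ⟨X.1, X.2, rfl⟩⟩ : W)) ⟨?_, ?_⟩)
  · intro X Y hXY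
    exact Subtype.ext (phi_inj hF h1 h2 X.2 Y.2 (congrArg Subtype.val hXY))
  · rintro ⟨v, hv⟩
    obtain ⟨X, hX, rfl⟩ := (h3 v).1 hv
    exact ⟨⟨X, hX⟩, rfl⟩

theorem card_fx (hF : Fintype.card F = 4) {b : Bool} {W : Submodule (ZMod 2) V} (h : IsNine ρ b W) (g : G3 F) :
    Nat.card (fx ρ g W) = NN (tw b g) := by
  obtain ⟨φ, h1, h2, h3, h4⟩ := h
  symm
  unfold NN
  refine Nat.card_congr (Equiv.ofBijective
    (fun X : {X : M3 F // HF X ∧ hact (tw b g) X = X} => (⟨φ X.1, ?_⟩ : fx ρ g W)) ⟨?_, ?_⟩)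
  · refine Submodule.mem_inf.2 ⟨(h3 _).2 ⟨X.1, X.2.1, rfl⟩, ?_⟩
    rw [LinearMap.mem_ker, LinearMap.sub_apply, LinearMap.id_apply, h4 g _ X.2.1, X.2.2, sub_self]
  · intro X Y hXY
    exact Subtype.ext (phi_inj hF h1 h2 X.2.1 Y.2.1 (congrArg Subtype.val hXY))
  · rintro ⟨v, hv⟩
    obtain ⟨hv1, hv2⟩ := Submodule.mem_inf.1 hv
    obtain ⟨X, hX, rfl⟩ := (h3 v).1 hv1
    rw [LinearMap.mem_ker, LinearMap.sub_apply, LinearMap.id_apply, h4 g _ hX, sub_eq_zero] at hv2
    exact ⟨⟨X, hX, phi_inj hF h1 h2 (HF_hact hF _ hX) hX hv2⟩, rfl⟩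

/-- **M7 (1)** from the class lemmas -/
theorem nine_dims_of [Module.Finite (ZMod 2) V] (c3 : Cls3 F) (c5 : Cls5 F) (c7 : Cls7 F) (hF : Fintype.card F = 4)
    {b : Bool} {W : Submodule (ZMod 2) V} (h : IsNine ρ b W) : Dims ρ W 9 3 1 0 := by
  refine ⟨finrank_of_card W (card_nine hF h), fun g hg hc => finrank_of_card _ ?_, fun g hg => finrank_of_card _ ?_,
    fun g hg => finrank_of_card _ ?_⟩
  · rw [card_fx hF h, NN3 hF c3 ((orderOf_tw b g).trans hg) (tw_center b hc)]; norm_num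
  · rw [card_fx hF h, NN5 hF c5 ((orderOf_tw b g).trans hg)]; norm_num
  · rw [card_fx hF h, NN7 hF c7 ((orderOf_tw b g).trans hg)]; norm_num

/-- **M7 (2)** -/
theorem nine_simp (hF : Fintype.card F = 4) {b : Bool} {W : Submodule (ZMod 2) V} (h : IsNine ρ b W) : Simp ρ W := by
  obtain ⟨e⟩ := exists_e hF
  obtain ⟨φ, h1, h2, h3, h4⟩ := h
  have hinv : Inv ρ W := by
    intro g w hw
    obtain ⟨X, hX, rfl⟩ := (h3 w).1 hw
    rw [h4 g X hX]
    exact (h3 _).2 ⟨_, HF_hact hF _ hX, rfl⟩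
  have hev : ∀ n, n < 512 → n ≠ 0 → φ (mu e (ev B4 n)) ≠ 0 := by
    intro n hn hn0 h
    have h5 := h2 _ (HF_ev e n) h
    have h6 : mu e (ev B4 n) = mu e (ev B4 0) := by rw [h5, ev_zero, map_zero]
    exact hn0 (ev_inj hn (by norm_num) (mu_inj e _ _ h6))
  refine ⟨hinv, ?_, ?_⟩
  · intro h
    apply hev 1 (by norm_num) (by norm_num)
    have : φ (mu e (ev B4 1)) ∈ W := (h3 _).2 ⟨_, HF_ev e 1, rfl⟩
    rw [h] at this
    exact (Submodule.mem_bot _).1 this
  · intro X hX hXW
    by_cases hb : X = ⊥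
    · exact Or.inl hb
    right
    obtain ⟨v, hv, hv0⟩ := Submodule.exists_mem_ne_zero_of_ne_bot hb
    obtain ⟨Y, hY, rfl⟩ := (h3 v).1 (hXW hv)
    obtain ⟨n, hn, rfl⟩ := herm_ev e Y hY
    have hn' : n < 512 := by norm_num at hn; exact hn
    have hS := sys_of e b φ h1 h4
    have hclo : Clo fun n => φ (mu e (ev B4 n)) ∈ X := by
      refine ⟨fun a c ha hc => ?_, fun g hg n hn => ?_⟩
      · show φ (mu e (ev B4 (a ^^^ c))) ∈ X
        rw [phi_ev e φ h1, ev_xor vv, ← phi_ev e φ h1, ← phi_ev e φ h1]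
        exact X.add_mem ha hc
      · show φ (mu e (ev B4 (act (M g) n))) ∈ X
        rw [← hact_gF e g hg]
        have h5 := hX (tw b (gF e g)) _ hn
        rw [h4 _ _ (HF_ev e n), tw_tw] at h5
        exact h5
    have h0 : n ≠ 0 := by
      rintro rfl
      apply hv0
      rw [phi_ev e φ h1, ev_zero]
    have hall := hclo.all hv h0 hn'
    refine le_antisymm hXW fun w hw => ?_
    obtain ⟨Z, hZ, rfl⟩ := (h3 w).1 hw
    obtain ⟨m, hm, rfl⟩ := herm_ev e Z hZ
    exact hall m (by norm_num at hm; exact hm)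

omit [Fintype F] in
theorem it_eq {g h : G3 F} (hh : g.1 * h.1.transpose = 1) : it g = h := by
  apply Subtype.ext
  show ((g⁻¹ : G3 F).1).transpose = h.1
  have h1 : (g⁻¹ : G3 F).1 = h.1.transpose := by
    have h2 : (g⁻¹ : G3 F).1 * g.1 = 1 := by
      have : g⁻¹ * g = 1 := inv_mul_cancel g
      exact congrArg Subtype.val this
    calc (g⁻¹ : G3 F).1 = (g⁻¹ : G3 F).1 * (g.1 * h.1.transpose) := by rw [hh, Matrix.mul_one]
      _ = h.1.transpose := by rw [← Matrix.mul_assoc, h2, Matrix.one_mul]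
  rw [h1, Matrix.transpose_transpose]

/-- inverse transposes of four of the elements -/
def tau (k : ℕ) : M3 F4 := if k = 6 then gm 0 else if k = 8 then gm 2 else if k = 2 then gm 8 else gm 5 * gm 5

/-- **M7 (3)** -/
theorem nine_ne (hF : Fintype.card F = 4) {W : Submodule (ZMod 2) V} (h : IsNine ρ false W) (h' : IsNine ρ true W) :
    False := by
  obtain ⟨e⟩ := exists_e hF
  obtain ⟨φ, h1, h2, h3, h4⟩ := h
  obtain ⟨ψ, k1, k2, k3, k4⟩ := h'
  have hm : φ (mu e (ev B4 1)) ∈ W := (h3 _).2 ⟨_, HF_ev e 1, rfl⟩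
  obtain ⟨Y, hY, hYv⟩ := (k3 _).1 hm
  obtain ⟨n, hn, rfl⟩ := herm_ev e Y hY
  have hn' : n < 512 := by norm_num at hn; exact hn
  -- the elements `it (gF k)` fix `φ (E11)`
  have key : ∀ k < 10, hact (it (gF e k)) (mu e (ev B4 1)) = mu e (ev B4 1) → act (M k) n = n := by
    intro k hk hfix
    have h5 : ρ (it (gF e k)) (φ (mu e (ev B4 1))) = φ (mu e (ev B4 1)) := by
      rw [h4 _ _ (HF_ev e 1)]
      exact congrArg φ hfix
    rw [← hYv, k4 _ _ hY] at h5
    have e1 : tw true (it (gF e k)) = gF e k := it_it _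
    rw [e1, hact_gF e k hk] at h5
    have h6 := phi_inj hF k1 k2 (HF_ev e _) hY h5
    have h7 := act_lt (M k) 9 n (lt_ok k hk)
    norm_num at h7
    exact ev_inj h7 hn' (mu_inj e _ _ h6)
  have hgg : ∀ {k l : ℕ}, k < 10 → l < 10 → gm k * (gm l).transpose = 1 → act (M l) 1 = 1 → act (M k) n = n := by
    intro k l hk hl h5 h6
    refine key k hk ?_
    have e1 : it (gF e k) = gF e l := by
      apply it_eq
      rw [gF_coe, gF_coe]
      have h7 : (mu e (gm l)).transpose = mu e (gm l).transpose := by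
        ext i j; rfl
      rw [h7, ← map_mul, h5, map_one]
    rw [e1, hact_gF e l hl, h6]
  have hz := ne_ok n hn' ?_ (hgg (k := 6) (l := 0) (by norm_num) (by norm_num) (by decide +kernel) (by decide +kernel))
    (hgg (k := 8) (l := 2) (by norm_num) (by norm_num) (by decide +kernel) (by decide +kernel))
    (hgg (k := 2) (l := 8) (by norm_num) (by norm_num) (by decide +kernel) (by decide +kernel))
  · subst hz
    have h5 : ψ (mu e (ev B4 0)) = 0 := by rw [phi_ev e ψ k1, ev_zero]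
    rw [h5] at hYv
    have h6 := h2 _ (HF_ev e 1) hYv.symm
    have h7 : mu e (ev B4 1) = mu e (ev B4 0) := by rw [h6, ev_zero, map_zero]
    exact absurd (ev_inj (by norm_num) (by norm_num) (mu_inj e _ _ h7)) (by norm_num)
  · refine key 5 (by norm_num) ?_
    have e1 : it (gF e 5) = gF e 5 * gF e 5 := by
      apply it_eq
      have h8 : (gF e 5 * gF e 5 : G3 F).1 = mu e (gm 5 * gm 5) := by
        rw [map_mul]; rfl
      rw [h8, gF_coe]
      have h7 : (mu e (gm 5 * gm 5)).transpose = mu e (gm 5 * gm 5).transpose := by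
        ext i j; rfl
      have h5 : gm 5 * (gm 5 * gm 5).transpose = 1 := by decide +kernel
      rw [h7, ← map_mul, h5, map_one]
    have h6 : act (M 5) 1 = 1 := by decide +kernel
    rw [e1, hact_mul hF, hact_gF e 5 (by norm_num), h6, hact_gF e 5 (by norm_num), h6]

end

end Cfsg.Agent.H360.L34
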